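import Cfsg.Agent.AutOrth.Main
import Cfsg.Agent.H556.OmMax

/-!
# Automorphisms of odd order of `POmega` centralising a Sylow 2-subgroup (TEAM RV, helper485)

1. `fixed_coeff`: `ρ : Representation F G V` preserves the symmetric form `f`; `b` is an orthogonal basis whose norms are
fixed by `σ`, `Odd (orderOf σ)`, all traces `tr (ρ g)` are fixed by `σ`, and the sign changes of `b` at two places
`≠ none` belong to `ρ G` (at least three places). Then all coefficients `f (b i) (ρ g (b j))` are fixed by `σ`.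
2. `fix_of_frame`: `α` is induced by a semisimilarity, has odd order and fixes the classes of all sign changes `t_jk` of
an orthonormal family `e` of `dim - 1 ≥ 6` vectors. Then `α` fixes the class of every `g ∈ Omega` that belongs to a
subgroup containing the `t_jk` on which all traces are fixed by the field automorphisms of odd order.
3. `ind_of_frame`: no triality: such an automorphism is induced by a semisimilarity (also in dimension 8).
-/

set_option autoImplicit false
set_option linter.unusedSectionVars false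
set_option linter.unusedSimpArgs false

namespace Cfsg.Agent.H485.RV

open Module

section ent

section odd

variable {F : Type*} [Field F]

theorem iter_neg (σ : F ≃+* F) {x : F} (h : σ x = -x) : ∀ n : ℕ, (σ ^ n) x = (-1) ^ n * x
  | 0 => by simp
  | n + 1 => by
    rw [pow_succ', RingAut.mul_apply, iter_neg σ h n, map_mul, map_pow, map_neg, map_one, h, pow_succ]
    ring

/-- a square fixed by an automorphism of odd order has fixed roots -/
theorem fixed_of_sq (h2 : (2 : F) ≠ 0) {σ : F ≃+* F} (hσ : Odd (orderOf σ)) {x : F} (h : σ (x * x) = x * x) :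
    σ x = x := by
  rw [map_mul] at h
  rcases mul_self_eq_mul_self_iff.1 h with h1 | h1
  · exact h1
  · have h3 := iter_neg σ h1 (orderOf σ)
    rw [pow_orderOf_eq_one, hσ.neg_one_pow] at h3
    have h4 : x = -1 * x := h3
    have h5 : (2 : F) * x = 0 := by linear_combination h4
    have h6 : x = 0 := (mul_eq_zero.1 h5).resolve_left h2
    rw [h6, map_zero]

end odd

variable {F : Type*} [Field F] {V : Type*} [AddCommGroup V] [Module F V] [FiniteDimensional F V]
  {G : Type*} [Group G] (ρ : Representation F G V)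

/-- `x` has fixed traces against `ρ G` -/
def TX (σ : F ≃+* F) (x : End F V) : Prop := ∀ h : G, σ (LinearMap.trace F V (x * ρ h)) = LinearMap.trace F V (x * ρ h)

variable {ρ} {σ : F ≃+* F}

theorem TX.one (htr : ∀ g, σ (LinearMap.trace F V (ρ g)) = LinearMap.trace F V (ρ g)) : TX ρ σ 1 := fun h => by
  rw [one_mul, htr]

theorem TX.mul {x : End F V} (hx : TX ρ σ x) (g : G) : TX ρ σ (x * ρ g) := fun h => by
  rw [mul_assoc, ← map_mul, hx]

theorem TX.add {x y : End F V} (hx : TX ρ σ x) (hy : TX ρ σ y) : TX ρ σ (x + y) := fun h => by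
  rw [add_mul, map_add, map_add, hx, hy]

theorem TX.sub {x y : End F V} (hx : TX ρ σ x) (hy : TX ρ σ y) : TX ρ σ (x - y) := fun h => by
  rw [sub_mul, map_sub, map_sub, hx, hy]

theorem TX.zero : TX ρ σ (0 : End F V) := fun h => by rw [zero_mul, map_zero, map_zero]

theorem TX.smul {x : End F V} (hx : TX ρ σ x) {c : F} (hc : σ c = c) : TX ρ σ (c • x) := fun h => by
  rw [smul_mul_assoc, map_smul, smul_eq_mul, map_mul, hc, hx]

theorem TX.sum {ι : Type*} (s : Finset ι) {x : ι → End F V} (hx : ∀ i ∈ s, TX ρ σ (x i)) : TX ρ σ (∑ i ∈ s, x i) := by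
  classical
  induction s using Finset.induction_on with
  | empty => rw [Finset.sum_empty]; exact TX.zero
  | insert a s ha ih =>
    rw [Finset.sum_insert ha]
    exact (hx a (Finset.mem_insert_self a s)).add (ih fun i hi => hx i (Finset.mem_insert_of_mem hi))

theorem TX.tr {x : End F V} (hx : TX ρ σ x) : σ (LinearMap.trace F V x) = LinearMap.trace F V x := by
  have := hx 1
  rwa [map_one, mul_one] at this

/-! ### orthogonal bases -/

section basis

variable {K : Type*} [Fintype K] [DecidableEq K] (f : V →ₗ[F] V →ₗ[F] F) (b : K → V)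

/-- orthogonal bases -/
structure OB : Prop where
  orth : ∀ i j, i ≠ j → f (b i) (b j) = 0
  ne : ∀ i, f (b i) (b i) ≠ 0
  span : ∀ v, v = ∑ i, (f (b i) v * (f (b i) (b i))⁻¹) • b i

/-- the projections -/
noncomputable def Pj (i : K) : End F V := (f (b i)).smulRight ((f (b i) (b i))⁻¹ • b i)

variable {f b}

theorem Pj_apply (i : K) (v : V) : Pj f b i v = (f (b i) v * (f (b i) (b i))⁻¹) • b i := by
  rw [Pj, LinearMap.smulRight_apply, smul_smul]

theorem OB.Pj_b (h : OB f b) (i j : K) : Pj f b i (b j) = if j = i then b i else 0 := by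
  rw [Pj_apply]
  split_ifs with hij
  · subst hij
    rw [mul_inv_cancel₀ (h.ne j), one_smul]
  · rw [h.orth i j (Ne.symm hij), zero_mul, zero_smul]

theorem OB.sum_Pj (h : OB f b) : ∑ i, Pj f b i = 1 := by
  apply LinearMap.ext
  intro v
  rw [LinearMap.sum_apply]
  simp only [Pj_apply]
  exact (h.span v).symm

theorem OB.ext (h : OB f b) {φ ψ : End F V} (h1 : ∀ i, φ (b i) = ψ (b i)) : φ = ψ := by
  apply LinearMap.ext
  intro v
  rw [h.span v, map_sum, map_sum]
  exact Finset.sum_congr rfl fun i _ => by rw [map_smul, map_smul, h1]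

theorem trace_Pj (g h : G) (i j : K) :
    LinearMap.trace F V (Pj f b i * ρ g * Pj f b j * ρ h) =
      (f (b i) (ρ g (b j)) * (f (b i) (b i))⁻¹) * (f (b j) (ρ h (b i)) * (f (b j) (b j))⁻¹) := by
  have h1 : Pj f b i * ρ g * Pj f b j * ρ h =
      ((f (b j)).comp (ρ h)).smulRight
        (((f (b i) (ρ g (b j)) * (f (b i) (b i))⁻¹) * (f (b j) (b j))⁻¹) • b i) := by
    apply LinearMap.ext
    intro v
    simp only [Module.End.mul_apply, Pj_apply, LinearMap.smulRight_apply, LinearMap.comp_apply, map_smul, smul_smul,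
      smul_eq_mul]
    congr 1
    ring
  rw [h1, LinearMap.trace_smulRight, LinearMap.comp_apply, map_smul, map_smul, smul_eq_mul]
  ring

end basis

/-! ### the sign changes -/

section signs

variable {J : Type*} [Fintype J] [DecidableEq J] {f : V →ₗ[F] V →ₗ[F] F} {b : Option J → V}

/-- `g` changes the signs of `b j` and `b k` -/
def IsSg (ρ : Representation F G V) (b : Option J → V) (j k : J) (g : G) : Prop :=
  ∀ i, ρ g (b i) = if i = some j ∨ i = some k then - b i else b i

theorem four_E (hb : OB f b) {j k l : J} (hjk : j ≠ k) (hjl : j ≠ l) (hkl : k ≠ l) {x y z : G}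
    (hx : IsSg ρ b j k x) (hy : IsSg ρ b j l y) (hz : IsSg ρ b k l z) :
    (4 : F) • Pj f b (some j) = 1 - ρ x - ρ y + ρ z := by
  apply hb.ext
  intro i
  rw [LinearMap.smul_apply, hb.Pj_b, LinearMap.add_apply, LinearMap.sub_apply, LinearMap.sub_apply, hx i, hy i, hz i,
    Module.End.one_apply]
  rcases i with _ | i
  · simp
  · by_cases h1 : i = j
    · subst h1
      simp only [if_true, true_or, Option.some.injEq, hjk, hjl, or_self, if_false]
      module
    · by_cases h2 : i = k
      · subst h2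
        simp [h1, hkl]
      · by_cases h3 : i = l
        · subst h3
          simp [h1, h2]
        · simp [h1, h2, h3]

theorem TX.mul_E_some (h2 : (2 : F) ≠ 0) (hb : OB f b) (h3 : 3 ≤ Fintype.card J)
    (hs : ∀ j k : J, j ≠ k → ∃ g : G, IsSg ρ b j k g) {x : End F V} (hx : TX ρ σ x) (j : J) :
    TX ρ σ (x * Pj f b (some j)) := by
  obtain ⟨k, l, hk, hl, hkl⟩ : ∃ k l : J, j ≠ k ∧ j ≠ l ∧ k ≠ l := by
    have h4 : 2 < Fintype.card J := by omega
    obtain ⟨a, c, d, hac, had, hcd⟩ := Fintype.two_lt_card_iff.1 h4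
    by_cases h5 : j = a
    · subst h5; exact ⟨c, d, hac, had, hcd⟩
    · by_cases h6 : j = c
      · subst h6; exact ⟨a, d, h5, hcd, had⟩
      · exact ⟨a, c, h5, h6, hac⟩
  obtain ⟨u, hu⟩ := hs j k hk
  obtain ⟨v, hv⟩ := hs j l hl
  obtain ⟨w, hw⟩ := hs k l hkl
  have h4 := four_E hb hk hl hkl hu hv hw
  have h40 : (4 : F) ≠ 0 := by
    have : (4 : F) = 2 * 2 := by norm_num
    rw [this]
    exact mul_ne_zero h2 h2
  have h5 : x * Pj f b (some j) = (4 : F)⁻¹ • (x - x * ρ u - x * ρ v + x * ρ w) := by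
    have h6 : Pj f b (some j) = (4 : F)⁻¹ • ((4 : F) • Pj f b (some j)) := by
      rw [smul_smul, inv_mul_cancel₀ h40, one_smul]
    rw [h6, h4, mul_smul_comm, mul_add, mul_sub, mul_sub, mul_one]
  rw [h5]
  refine TX.smul (((hx.sub (hx.mul u)).sub (hx.mul v)).add (hx.mul w)) ?_
  rw [map_inv₀]
  congr 1
  exact map_ofNat σ 4

theorem TX.mul_E (h2 : (2 : F) ≠ 0) (hb : OB f b) (h3 : 3 ≤ Fintype.card J)
    (hs : ∀ j k : J, j ≠ k → ∃ g : G, IsSg ρ b j k g) {x : End F V} (hx : TX ρ σ x) (i : Option J) :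
    TX ρ σ (x * Pj f b i) := by
  rcases i with _ | j
  · have h4 : Pj f b none = 1 - ∑ j : J, Pj f b (some j) := by
      rw [← hb.sum_Pj, Fintype.sum_option, add_sub_cancel_right]
    rw [h4, mul_sub, mul_one, Finset.mul_sum]
    exact hx.sub (TX.sum _ fun j _ => hx.mul_E_some h2 hb h3 hs j)
  · exact hx.mul_E_some h2 hb h3 hs j

/-- **The coefficients are fixed.** -/
theorem fixed_coeff (h2 : (2 : F) ≠ 0) (hσ : Odd (orderOf σ)) (hb : OB f b) (h3 : 3 ≤ Fintype.card J)
    (hs : ∀ j k : J, j ≠ k → ∃ g : G, IsSg ρ b j k g) (hc : ∀ i, σ (f (b i) (b i)) = f (b i) (b i))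
    (hf : ∀ g u v, f (ρ g u) (ρ g v) = f u v) (hsym : ∀ u v, f u v = f v u)
    (htr : ∀ g, σ (LinearMap.trace F V (ρ g)) = LinearMap.trace F V (ρ g)) (g : G) (i j : Option J) :
    σ (f (b i) (ρ g (b j))) = f (b i) (ρ g (b j)) := by
  apply fixed_of_sq h2 hσ
  have h4 : TX ρ σ (1 * Pj f b i * ρ g * Pj f b j) := (((TX.one htr).mul_E h2 hb h3 hs i).mul g).mul_E h2 hb h3 hs j
  have h5 := h4 g⁻¹
  rw [one_mul, trace_Pj] at h5
  have h6 : f (b j) (ρ g⁻¹ (b i)) = f (b i) (ρ g (b j)) := by
    rw [← hf g, ← Module.End.mul_apply, ← map_mul, mul_inv_cancel, map_one, Module.End.one_apply, hsym]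
  rw [h6] at h5
  have h7 : f (b i) (ρ g (b j)) * (f (b i) (b i))⁻¹ * (f (b i) (ρ g (b j)) * (f (b j) (b j))⁻¹) =
      (f (b i) (ρ g (b j)) * f (b i) (ρ g (b j))) * ((f (b i) (b i))⁻¹ * (f (b j) (b j))⁻¹) := by ring
  rw [h7, map_mul, map_mul σ ((f (b i) (b i))⁻¹), map_inv₀, map_inv₀, hc, hc] at h5
  exact mul_right_cancel₀ (mul_ne_zero (inv_ne_zero (hb.ne i)) (inv_ne_zero (hb.ne j))) h5

end signs

end ent

section fix

open QuadraticMap Cfsg.Agent.H167.OP Cfsg.Agent.H170.HL Cfsg.Agent.H170.HL.OmRow Cfsg.Agent.H556.Om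
open Cfsg.Agent.AutOrth Cfsg.Agent.AutOrth.Main

variable {F : Type*} [Field F] {ι : Type} [Fintype ι] [DecidableEq ι] {Q : QuadraticForm F (ι → F)}

/-- `α` is induced by the semisimilarity `T` -/
structure IndBy (Q : QuadraticForm F (ι → F)) (α : MulAut (Cfsg.POmega F (⇑Q))) (σ : F ≃+* F) (μ : F)
    (T : (ι → F) ≃+ (ι → F)) : Prop where
  semi : SemiSim.IsSemi Q T σ μ
  ind : ∀ g g' : Cfsg.Omega F (⇑Q), (∀ v, rep (inc (⇑Q)) g' (T v) = T (rep (inc (⇑Q)) g v)) →
    α (QuotientGroup.mk g) = QuotientGroup.mk g'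

theorem exists_indBy {α : MulAut (Cfsg.POmega F (⇑Q))} (h : Ind (⇑Q) α) : ∃ σ μ T, IndBy Q α σ μ T := by
  obtain ⟨σ, μ, T, ⟨h1, h2, h3⟩, h4⟩ := h
  exact ⟨σ, μ, T, ⟨h1, h2, h3⟩, h4⟩

variable {α β : MulAut (Cfsg.POmega F (⇑Q))} {σ τ : F ≃+* F} {μ ν : F} {T U : (ι → F) ≃+ (ι → F)}

/-- semisimilarities normalise `Omega` -/
theorem exists_semi_conj (hG : Cfsg.Agent.LieClassical.OrthTrans.Good Q)
    (hM : SemiSim.IsSemi Q T σ μ) (g : Cfsg.Omega F (⇑Q)) :
    ∃ g' : Cfsg.Omega F (⇑Q), ∀ v, rep (inc (⇑Q)) g' (T v) = T (rep (inc (⇑Q)) g v) := by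
  obtain ⟨g', hg'⟩ := (oe hG).surjective (SemiSim.conjE hM (oe hG g))
  refine ⟨g', fun v => ?_⟩
  have h1 := SemiSim.conjE_apply hM (oe hG g) v
  rw [← hg', oe_apply, oe_apply] at h1
  exact h1

theorem IndBy.one : IndBy Q 1 1 1 (AddEquiv.refl _) := by
  refine ⟨⟨one_ne_zero, fun _ _ => rfl, fun v => (one_mul _).symm⟩, fun g g' hg => ?_⟩
  have h1 : g' = g := by
    apply rep_injective inc_injective
    apply LinearMap.ext
    exact hg
  rw [h1]
  rfl

theorem IndBy.mul (hG : Cfsg.Agent.LieClassical.OrthTrans.Good Q) (h : IndBy Q α σ μ T) (h' : IndBy Q β τ ν U) :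
    IndBy Q (α * β) (σ * τ) (μ * σ ν) (U.trans T) := by
  refine ⟨⟨mul_ne_zero h.semi.ne ((map_ne_zero σ).2 h'.semi.ne), fun a v => ?_, fun v => ?_⟩, fun g g'' hg => ?_⟩
  · rw [AddEquiv.trans_apply, h'.semi.smul, h.semi.smul]
    rfl
  · rw [AddEquiv.trans_apply, h.semi.form, h'.semi.form, map_mul, mul_assoc]
    rfl
  · obtain ⟨g', hg'⟩ := exists_semi_conj hG h'.semi g
    rw [MulAut.mul_apply, h'.ind g g' hg']
    apply h.ind
    intro v
    obtain ⟨u, rfl⟩ := U.surjective v
    have h1 := hg u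
    rw [AddEquiv.trans_apply, AddEquiv.trans_apply, ← hg'] at h1
    exact h1

theorem IndBy.pow (hG : Cfsg.Agent.LieClassical.OrthTrans.Good Q) (h : IndBy Q α σ μ T) (n : ℕ) :
    ∃ c U, IndBy Q (α ^ n) (σ ^ n) c U := by
  induction n with
  | zero => exact ⟨1, AddEquiv.refl _, IndBy.one⟩
  | succ n ih =>
    obtain ⟨c, U, hc⟩ := ih
    rw [pow_succ', pow_succ']
    exact ⟨_, _, h.mul hG hc⟩

/-! ### the frame -/

variable {J : Type*} [Fintype J] [DecidableEq J] {e : J → ι → F} {w : ι → F}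

/-- the basis -/
def bs (e : J → ι → F) (w : ι → F) : Option J → ι → F := fun o => o.elim w e

theorem isSg_of (h2 : (2 : F) ≠ 0) (hF : Frame (polarBilin Q) e) (hw : ∀ j, polarBilin Q (e j) w = 0)
    {j k : J} {g : Cfsg.Omega F (⇑Q)} (hg : rep (inc (⇑Q)) g = mono (polarBilin Q) e (H556.Om.sg F j k) id) :
    IsSg (rep (inc (⇑Q))) (bs e w) j k g := by
  intro i
  rw [hg]
  rcases i with _ | i
  · show mono (polarBilin Q) e (sg F j k) id w = _
    rw [mono_orth hw]
    simp [bs]
  · show mono (polarBilin Q) e (sg F j k) id (e i) = _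
    rw [mono_e hF h2]
    simp only [sg, Option.some.injEq, id]
    split_ifs <;> simp [bs]

theorem li_of_orth {K : Type*} [Fintype K] {f : (ι → F) →ₗ[F] (ι → F) →ₗ[F] F} {b : K → ι → F}
    (horth : ∀ i j, i ≠ j → f (b i) (b j) = 0) (hne : ∀ i, f (b i) (b i) ≠ 0) : LinearIndependent F b := by
  rw [Fintype.linearIndependent_iff]
  intro c hc i
  have h1 := congrArg (f (b i)) hc
  rw [map_sum, map_zero, Finset.sum_eq_single i (fun j _ hji => by
    rw [map_smul, horth i j (Ne.symm hji), smul_zero]) (fun h => absurd (Finset.mem_univ i) h), map_smul,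
    smul_eq_mul] at h1
  exact (mul_eq_zero.1 h1).resolve_right (hne i)

/-- `e` and `w` form an orthogonal basis -/
theorem ob_bs (h2 : (2 : F) ≠ 0) (hF : Frame (polarBilin Q) e) (hw : ∀ j, polarBilin Q (e j) w = 0)
    (hw0 : polarBilin Q w w ≠ 0) (hc : Fintype.card J + 1 = Fintype.card ι) : OB (polarBilin Q) (bs e w) := by
  have horth : ∀ i j : Option J, i ≠ j → polarBilin Q (bs e w i) (bs e w j) = 0 := by
    rintro (_ | i) (_ | j) hij
    · exact absurd rfl hij
    · show polarBilin Q w (e j) = 0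
      rw [polar_symm, hw]
    · exact hw i
    · exact hF.orth i j fun h => hij (congrArg some h)
  have hne : ∀ i : Option J, polarBilin Q (bs e w i) (bs e w i) ≠ 0 := by
    rintro (_ | i)
    · exact hw0
    · show polarBilin Q (e i) (e i) ≠ 0
      rw [hF.self]; exact h2
  have hli : LinearIndependent F (bs e w) := li_of_orth horth hne
  have hspan : Submodule.span F (Set.range (bs e w)) = ⊤ := by
    apply LinearIndependent.span_eq_top_of_card_eq_finrank' hli
    rw [Fintype.card_option, hc, Module.finrank_fintype_fun_eq_card]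
  refine ⟨horth, hne, fun v => ?_⟩
  have hv : v ∈ Submodule.span F (Set.range (bs e w)) := by rw [hspan]; trivial
  obtain ⟨c, rfl⟩ := (Submodule.mem_span_range_iff_exists_fun F).1 hv
  refine Finset.sum_congr rfl fun i _ => ?_
  congr 1
  rw [map_sum, Finset.sum_eq_single i (fun j _ hji => by
    rw [map_smul, horth i j (Ne.symm hji), smul_zero]) (fun h => absurd (Finset.mem_univ i) h), map_smul, smul_eq_mul,
    mul_assoc, mul_inv_cancel₀ (hne i), mul_one]

/-- the coordinates -/
noncomputable def cf (Q : QuadraticForm F (ι → F)) (b : Option J → ι → F) (i : Option J) (v : ι → F) : F :=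
  polarBilin Q (b i) v * (polarBilin Q (b i) (b i))⁻¹

theorem IsSg.cf {b : Option J → ι → F} {j k : J} {g : Cfsg.Omega F (⇑Q)}
    (hg : IsSg (rep (inc (⇑Q))) b j k g) (i : Option J) (v : ι → F) :
    RV.cf Q b i (rep (inc (⇑Q)) g v) = if i = some j ∨ i = some k then - RV.cf Q b i v else RV.cf Q b i v := by
  have h1 : polarBilin Q (rep (inc (⇑Q)) g (b i)) (rep (inc (⇑Q)) g v) = polarBilin Q (b i) v := polar_apply Q g _ _
  rw [hg i] at h1
  unfold RV.cf
  split_ifs at h1 ⊢ with h2
  · rw [← h1, map_neg, LinearMap.neg_apply]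
    ring
  · rw [h1]

theorem OB.eq_of_cf {b : Option J → ι → F} (hb : OB (polarBilin Q) b) {v : ι → F} {i : Option J}
    (h : ∀ j, j ≠ i → cf Q b j v = 0) : v = cf Q b i v • b i := by
  conv_lhs => rw [hb.span v]
  rw [Finset.sum_eq_single i (fun j _ hj => by
    have := h j hj
    unfold cf at this
    rw [this, zero_smul]) (fun h => absurd (Finset.mem_univ i) h)]
  rfl

/-- a semilinear map commuting with the sign changes preserves the lines of the frame -/
theorem exists_line (h2 : (2 : F) ≠ 0) {b : Option J → ι → F} (hb : OB (polarBilin Q) b) (h3 : 3 ≤ Fintype.card J)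
    {T : (ι → F) ≃+ (ι → F)}
    (hs : ∀ j k : J, j ≠ k → ∃ g : Cfsg.Omega F (⇑Q), IsSg (rep (inc (⇑Q))) b j k g ∧
      ∀ v, rep (inc (⇑Q)) g (T v) = T (rep (inc (⇑Q)) g v)) (i : Option J) :
    ∃ c : F, T (b i) = c • b i := by
  have key : ∀ x : F, -x = x → x = 0 := by
    intro x hx
    have : (2 : F) * x = 0 := by linear_combination -hx
    exact (mul_eq_zero.1 this).resolve_left h2
  rcases i with _ | j
  · refine ⟨_, hb.eq_of_cf (i := none) fun k hk => ?_⟩
    rcases k with _ | k
    · exact absurd rfl hk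
    · obtain ⟨l, hl⟩ : ∃ l, l ≠ k := Fintype.exists_ne_of_one_lt_card (by omega) k
      obtain ⟨g, hg, hgT⟩ := hs l k hl
      have h4 := hg.cf (some k) (T (b none))
      rw [hgT, hg none, if_neg (by simp), if_pos (Or.inr rfl)] at h4
      exact key _ h4.symm
  · refine ⟨_, hb.eq_of_cf (i := some j) fun k hk => ?_⟩
    obtain ⟨l, hl, hlk⟩ : ∃ l : J, l ≠ j ∧ some l ≠ k := by
      have h4 : 2 < Fintype.card J := by omega
      obtain ⟨a, c, d, hac, had, hcd⟩ := Fintype.two_lt_card_iff.1 h4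
      by_contra hcon
      push Not at hcon
      have h5 : ∀ x y : J, x ≠ j → y ≠ j → x = y := fun x y hx hy =>
        Option.some_injective _ ((hcon x hx).trans (hcon y hy).symm)
      by_cases h6 : a = j
      · exact hcd (h5 c d (fun h => hac (h6.trans h.symm)) (fun h => had (h6.trans h.symm)))
      · by_cases h7 : c = j
        · exact had (h5 a d h6 (fun h => hcd (h7.trans h.symm)))
        · exact hac (h5 a c h6 h7)
    obtain ⟨g, hg, hgT⟩ := hs j l (Ne.symm hl)
    have h4 := hg.cf k (T (b (some j)))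
    rw [hgT, hg (some j), if_pos (Or.inl rfl), map_neg, if_neg (by
      rintro (h | h)
      · exact hk h
      · exact hlk h.symm)] at h4
    apply key
    unfold cf at h4 ⊢
    rw [map_neg] at h4
    linear_combination h4

/-! ### norms fixed by the field automorphism -/

theorem isSquare_mul_map [Finite F] (τ : F ≃+* F) (a : F) : IsSquare (τ a * a) := by
  have := Fintype.ofFinite F
  by_cases h2 : ringChar F = 2
  · exact FiniteField.isSquare_of_char_two h2 _
  by_cases ha : IsSquare a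
  · exact (ha.map τ).mul ha
  · have h1 : ¬ IsSquare (τ a) := by
      intro h
      have := h.map τ.symm
      rw [RingEquiv.symm_apply_apply] at this
      exact ha this
    classical
    have h3 : quadraticChar F (τ a * a) = 1 := by
      rw [map_mul, quadraticChar_neg_one_iff_not_isSquare.2 ha, quadraticChar_neg_one_iff_not_isSquare.2 h1]
      norm_num
    rcases eq_or_ne (τ a * a) 0 with h4 | h4
    · rw [h4]; exact IsSquare.zero
    · exact (quadraticChar_one_iff_isSquare h4).1 h3

theorem pow_fix (τ : F ≃+* F) (a : F) (n : ℕ) :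
    τ (∏ i ∈ Finset.range n, (τ ^ i) a) * a = (∏ i ∈ Finset.range n, (τ ^ i) a) * (τ ^ n) a := by
  rw [← Finset.prod_range_succ, Finset.prod_range_succ', map_prod]
  congr 1
  exact Finset.prod_congr rfl fun i _ => by rw [pow_succ', RingAut.mul_apply]

/-- every `a ≠ 0` is a norm up to squares -/
theorem exists_norm [Finite F] {τ : F ≃+* F} (hτ : Odd (orderOf τ)) {a : F} (ha : a ≠ 0) :
    ∃ c : F, c ≠ 0 ∧ τ (c * c * a) = c * c * a := by
  set n := orderOf τ with hn
  set N := ∏ i ∈ Finset.range n, (τ ^ i) a with hN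
  have h1 : τ N = N := by
    have h := pow_fix τ a n
    rw [hn, pow_orderOf_eq_one, ← hn] at h
    exact mul_right_cancel₀ ha h
  have hN0 : N ≠ 0 := Finset.prod_ne_zero_iff.2 fun i _ => (map_ne_zero _).2 ha
  have h2 : IsSquare (N * a ^ n) := by
    have : N * a ^ n = ∏ i ∈ Finset.range n, ((τ ^ i) a * a) := by
      rw [Finset.prod_mul_distrib, Finset.prod_const, Finset.card_range]
    rw [this]
    exact Finset.isSquare_prod _ fun i _ => isSquare_mul_map (τ ^ i) a
  obtain ⟨k, hk⟩ := hτ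
  obtain ⟨d, hd⟩ := h2
  have h3 : n = 2 * k + 1 := hk
  have hd0 : d ≠ 0 := by
    rintro rfl
    rw [mul_zero] at hd
    exact mul_ne_zero hN0 (pow_ne_zero _ ha) hd
  refine ⟨d * (a ^ (k + 1))⁻¹, mul_ne_zero hd0 (inv_ne_zero (pow_ne_zero _ ha)), ?_⟩
  have h4 : d * (a ^ (k + 1))⁻¹ * (d * (a ^ (k + 1))⁻¹) * a = N := by
    have h5 : d * (a ^ (k + 1))⁻¹ * (d * (a ^ (k + 1))⁻¹) * a = (d * d) * ((a ^ (k + 1))⁻¹ * (a ^ (k + 1))⁻¹ * a) := by
      ring
    rw [h5, ← hd, h3]
    field_simp
    ring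
  rw [h4, h1]

/-! ### the sign -/

/-- an automorphism induced by `T` fixing the class of a sign change comes from a map commuting with it -/
theorem comm_sg [Finite F] (hG : Cfsg.Agent.LieClassical.OrthTrans.Good Q) (hQ : GoodQ Q) (h2 : (2 : F) ≠ 0)
    {b : Option J → ι → F} (hb : OB (polarBilin Q) b) (hc : 5 ≤ Fintype.card J) (h : IndBy Q α σ μ T) {j k : J}
    {g : Cfsg.Omega F (⇑Q)} (hg : IsSg (rep (inc (⇑Q))) b j k g)
    (hα : α (QuotientGroup.mk g) = QuotientGroup.mk g) (v : ι → F) :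
    rep (inc (⇑Q)) g (T v) = T (rep (inc (⇑Q)) g v) := by
  obtain ⟨g', hg'⟩ := exists_semi_conj hG h.semi g
  have h1 := h.ind g g' hg'
  rw [hα] at h1
  have h3 : g⁻¹ * g' ∈ Subgroup.center (Cfsg.Omega F (⇑Q)) := QuotientGroup.eq.1 h1
  have h4 := (Cfsg.Agent.LieClassical.OmegaCenter.mem_center_omega_iff Q hQ.nd hQ.card hQ.sing _).mp h3
  have h4' : inc (⇑Q) (g⁻¹ * g') = 1 ∨ inc (⇑Q) (g⁻¹ * g') = -1 := h4
  rcases h4' with h5 | h5
  · have h6 : g⁻¹ * g' = 1 := by
      apply inc_injective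
      rw [h5, map_one]
    have h7 : g' = g := by
      rw [← mul_one g, ← h6]; group
    rw [← hg' v, h7]
  · exfalso
    have h6 : ∀ v, rep (inc (⇑Q)) g' v = - rep (inc (⇑Q)) g v := by
      intro v
      have : g' = g * (g⁻¹ * g') := by group
      rw [this, map_mul, Module.End.mul_apply]
      have h7 : rep (inc (⇑Q)) (g⁻¹ * g') v = - v := by
        show (inc (⇑Q) (g⁻¹ * g') : Matrix ι ι F).mulVec v = -v
        rw [h5, Matrix.neg_mulVec, Matrix.one_mulVec]
      rw [h7, map_neg]
    have key : ∀ x : F, -x = x → x = 0 := by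
      intro x hx
      have : (2 : F) * x = 0 := by linear_combination -hx
      exact (mul_eq_zero.1 this).resolve_left h2
    let K := {i : Option J // ¬ (i = some j ∨ i = some k)}
    have hK : 3 ≤ Fintype.card K := by
      have h7 : Fintype.card K = Fintype.card (Option J) - Fintype.card {i : Option J // i = some j ∨ i = some k} :=
        Fintype.card_subtype_compl _
      have h8 : Fintype.card {i : Option J // i = some j ∨ i = some k} ≤ 2 := by
        rw [Fintype.card_subtype]
        refine (Finset.card_le_card (t := {some j, some k}) fun i hi => ?_).trans Finset.card_le_two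
        simpa using hi
      rw [h7, Fintype.card_option]
      omega
    have hpol : ∀ u v, polarBilin Q (T u) (T v) = μ * σ (polarBilin Q u v) := fun u v => h.semi.polar u v
    have hli : LinearIndependent F fun i : K => T (b i) := by
      apply li_of_orth (f := polarBilin Q)
      · intro i l hil
        rw [hpol, hb.orth i l fun h => hil (Subtype.ext h), map_zero, mul_zero]
      · intro i
        rw [hpol]
        exact mul_ne_zero h.semi.ne ((map_ne_zero σ).2 (hb.ne i))
    have hmem : ∀ i : K, T (b i) ∈ Submodule.span F ({b (some j), b (some k)} : Set (ι → F)) := by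
      intro i
      have h7 : rep (inc (⇑Q)) g (T (b i)) = - T (b i) := by
        have h8 := hg' (b i)
        rw [h6, hg i, if_neg i.2] at h8
        have h9 := congrArg Neg.neg h8
        rwa [neg_neg] at h9
      rw [hb.span (T (b i))]
      refine Submodule.sum_mem _ fun l _ => ?_
      by_cases h8 : l = some j ∨ l = some k
      · apply Submodule.smul_mem
        apply Submodule.subset_span
        rcases h8 with rfl | rfl
        · exact Or.inl rfl
        · exact Or.inr rfl
      · have h9 := hg.cf l (T (b i))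
        rw [h7, if_neg h8] at h9
        have h10 : cf Q b l (T (b i)) = 0 := by
          apply key
          unfold cf at h9 ⊢
          rw [map_neg] at h9
          linear_combination h9
        unfold cf at h10
        rw [h10, zero_smul]
        exact Submodule.zero_mem _
    have h7 : Module.finrank F (Submodule.span F (Set.range fun i : K => T (b i))) = Fintype.card K :=
      finrank_span_eq_card hli
    have h8 : Submodule.span F (Set.range fun i : K => T (b i)) ≤
        Submodule.span F ({b (some j), b (some k)} : Set (ι → F)) := by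
      rw [Submodule.span_le]
      rintro _ ⟨i, rfl⟩
      exact hmem i
    have h9 := Submodule.finrank_mono h8
    classical
    have h10 : Module.finrank F (Submodule.span F ({b (some j), b (some k)} : Set (ι → F))) ≤ 2 := by
      have := finrank_span_le_card (R := F) ({b (some j), b (some k)} : Set (ι → F))
      refine this.trans ?_
      rw [Set.toFinset_card]
      refine (Fintype.card_le_of_surjective (fun x : Bool => if x then (⟨b (some j), Or.inl rfl⟩ :
        ({b (some j), b (some k)} : Set (ι → F))) else ⟨b (some k), Or.inr rfl⟩) ?_).trans (by simp)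
      rintro ⟨_, rfl | rfl⟩
      · exact ⟨true, rfl⟩
      · exact ⟨false, rfl⟩
    omega

theorem pow_fixed {G : Type*} [Group G] {α : MulAut G} {x : G} (h : α x = x) : ∀ n : ℕ, (α ^ n) x = x
  | 0 => rfl
  | n + 1 => by rw [pow_succ, MulAut.mul_apply, h, pow_fixed h n]

/-! ### the main step -/

/-- **An automorphism of odd order that fixes the classes of the sign changes fixes the class of every element of a
group whose traces are fixed by the field automorphisms of odd order.** -/
theorem fix_of_frame [Finite F] (hG : Cfsg.Agent.LieClassical.OrthTrans.Good Q) (hQ : GoodQ Q) (h2 : (2 : F) ≠ 0)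
    (hF : Frame (polarBilin Q) e) (hw : ∀ j, polarBilin Q (e j) w = 0) (hw0 : polarBilin Q w w ≠ 0)
    (hc : Fintype.card J + 1 = Fintype.card ι) (h5 : 5 ≤ Fintype.card J) {H : Subgroup (Cfsg.Omega F (⇑Q))}
    (hH : ∀ j k, j ≠ k → ∀ g : Cfsg.Omega F (⇑Q), rep (inc (⇑Q)) g = mono (polarBilin Q) e (H556.Om.sg F j k) id → g ∈ H)
    (htr : ∀ τ : F ≃+* F, Odd (orderOf τ) → ∀ h ∈ H,
      τ (LinearMap.trace F (ι → F) (rep (inc (⇑Q)) h)) = LinearMap.trace F (ι → F) (rep (inc (⇑Q)) h))
    (hα : Odd (orderOf α)) (hI : Ind (⇑Q) α)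
    (hfix : ∀ j k, j ≠ k → ∀ g : Cfsg.Omega F (⇑Q), rep (inc (⇑Q)) g = mono (polarBilin Q) e (H556.Om.sg F j k) id →
      α (QuotientGroup.mk g) = QuotientGroup.mk g) {h : Cfsg.Omega F (⇑Q)} (hh : h ∈ H) :
    α (QuotientGroup.mk h) = QuotientGroup.mk h := by
  obtain ⟨σ, μ, T, hT⟩ := exists_indBy hI
  -- a square root of `α` with a field automorphism of odd order
  have hfin : Finite (F ≃+* F) := by
    exact Finite.of_injective (fun τ : F ≃+* F => (τ : F → F)) fun a b h => RingEquiv.ext (congrFun h)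
  obtain ⟨a, m', hm', hord⟩ := Nat.exists_eq_two_pow_mul_odd (orderOf_pos σ).ne'
  have hcop : (2 ^ (a + 1)).Coprime (orderOf α) := Nat.Coprime.pow_left _ (Nat.coprime_two_left.2 hα)
  obtain ⟨m, hm⟩ := exists_pow_eq_self_of_coprime hcop
  obtain ⟨ν, U, hU⟩ := hT.pow hG (2 ^ a * m)
  set β := α ^ (2 ^ a * m) with hβ
  set τ := σ ^ (2 ^ a * m) with hτ
  have hββ : β * β = α := by
    rw [← pow_mul] at hm
    rw [hβ, ← pow_add, show 2 ^ a * m + 2 ^ a * m = 2 ^ (a + 1) * m by ring]
    exact hm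
  have hτo : Odd (orderOf τ) := by
    have h3 : τ ^ m' = 1 := by
      rw [hτ, ← pow_mul, show 2 ^ a * m * m' = (2 ^ a * m') * m by ring, pow_mul, ← hord, pow_orderOf_eq_one, one_pow]
    exact hm'.of_dvd_nat (orderOf_dvd_of_pow_eq_one h3)
  -- normalise `w`
  obtain ⟨c, hc0, hcw⟩ := exists_norm hτo hw0
  set w' := c • w with hw'
  have hw1 : ∀ j, polarBilin Q (e j) w' = 0 := fun j => by rw [hw', map_smul, hw, smul_zero]
  have hw2 : polarBilin Q w' w' = c * c * polarBilin Q w w := by
    rw [hw', map_smul, map_smul, LinearMap.smul_apply, smul_eq_mul, smul_eq_mul, mul_assoc]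
  have hw3 : polarBilin Q w' w' ≠ 0 := by
    rw [hw2]; exact mul_ne_zero (mul_ne_zero hc0 hc0) hw0
  set b := bs e w' with hbdef
  have hb : OB (polarBilin Q) b := ob_bs h2 hF hw1 hw3 hc
  have hnorm : ∀ i, τ (polarBilin Q (b i) (b i)) = polarBilin Q (b i) (b i) := by
    rintro (_ | i)
    · show τ (polarBilin Q w' w') = polarBilin Q w' w'
      rw [hw2, hcw]
    · show τ (polarBilin Q (e i) (e i)) = polarBilin Q (e i) (e i)
      rw [hF.self]; exact map_ofNat τ 2
  have hsg : ∀ j k : J, j ≠ k → ∃ g : Cfsg.Omega F (⇑Q), g ∈ H ∧ IsSg (rep (inc (⇑Q))) b j k g ∧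
      α (QuotientGroup.mk g) = QuotientGroup.mk g := by
    intro j k hjk
    obtain ⟨g, hg⟩ := exists_sg hQ h2 hF hjk
    exact ⟨g, hH j k hjk g hg, isSg_of h2 hF hw1 hg, hfix j k hjk g hg⟩
  -- `U` preserves the lines
  have hline : ∀ i, ∃ c : F, U (b i) = c • b i := by
    refine exists_line h2 hb (by omega) fun j k hjk => ?_
    obtain ⟨g, -, hg, hgα⟩ := hsg j k hjk
    refine ⟨g, hg, comm_sg hG hQ h2 hb h5 hU hg ?_⟩
    rw [hβ]
    exact pow_fixed hgα _
  choose γ hγ using hline
  have hpol : ∀ u v, polarBilin Q (U u) (U v) = ν * τ (polarBilin Q u v) := fun u v => hU.semi.polar u v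
  have hγν : ∀ i, γ i * γ i = ν := by
    intro i
    have h3 := hpol (b i) (b i)
    rw [hγ, map_smul, map_smul, LinearMap.smul_apply, smul_eq_mul, smul_eq_mul, hnorm, ← mul_assoc] at h3
    exact mul_right_cancel₀ (hb.ne i) h3
  set δ := τ (γ none) * γ none with hδ
  have hUU : ∀ i, U (U (b i)) = δ • b i := by
    intro i
    rw [hγ, hU.semi.smul, hγ, smul_smul]
    congr 1
    rcases mul_self_eq_mul_self_iff.1 ((hγν i).trans (hγν none).symm) with h3 | h3
    · rw [h3]
    · rw [h3, map_neg, neg_mul_neg]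
  -- the coefficients
  have hcoef : ∀ i j, τ (cf Q b i (rep (inc (⇑Q)) h (b j))) = cf Q b i (rep (inc (⇑Q)) h (b j)) := by
    intro i j
    have h3 : τ (polarBilin Q (b i) ((rep (inc (⇑Q)) h) (b j))) = polarBilin Q (b i) ((rep (inc (⇑Q)) h) (b j)) := by
      refine fixed_coeff (ρ := (rep (inc (⇑Q))).comp H.subtype) (f := polarBilin Q) h2 hτo hb (by omega) ?_ hnorm ?_ ?_
        ?_ (⟨h, hh⟩ : H) i j
      · intro j k hjk
        obtain ⟨g, hgH, hg, -⟩ := hsg j k hjk
        exact ⟨⟨g, hgH⟩, hg⟩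
      · intro g u v
        exact polar_apply Q _ _ _
      · intro u v
        exact polar_symm _ _
      · intro g
        exact htr τ hτo g g.2
    unfold cf
    rw [map_mul, map_inv₀, h3, hnorm]
  rw [← hββ]
  apply (hU.mul hG hU).ind h h
  have h3 : ∀ j, rep (inc (⇑Q)) h (U (U (b j))) = U (U (rep (inc (⇑Q)) h (b j))) := by
    intro j
    rw [hUU, map_smul]
    conv_rhs => rw [hb.span (rep (inc (⇑Q)) h (b j))]
    conv_lhs => rw [hb.span (rep (inc (⇑Q)) h (b j))]
    rw [map_sum, map_sum, Finset.smul_sum]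
    refine Finset.sum_congr rfl fun i _ => ?_
    rw [hU.semi.smul, hU.semi.smul, hUU, smul_smul, smul_smul]
    congr 1
    have h4 := hcoef i j
    unfold cf at h4
    rw [h4, h4, mul_comm]
  intro v
  rw [AddEquiv.trans_apply, AddEquiv.trans_apply]
  rw [hb.span v]
  rw [map_sum, map_sum, map_sum, map_sum, map_sum, map_sum]
  refine Finset.sum_congr rfl fun i _ => ?_
  rw [hU.semi.smul, hU.semi.smul, map_smul, map_smul, hU.semi.smul, hU.semi.smul, h3]

end fix

section tri

open QuadraticMap Cfsg.Agent.H167.OP Cfsg.Agent.H170.HL Cfsg.Agent.H170.HL.OmRow Cfsg.Agent.H556.Om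
open Cfsg.Agent.AutOrth Cfsg.Agent.AutOrth.Main Cfsg.Agent.LieClassical.OrthTrans
open Cfsg.Agent.ClassicalGeometry.OrthAut1 Cfsg.Agent.LieClassical.OrthCore Cfsg.Agent.LieClassical.OrthSimple

section

variable {F V : Type*} [Field F] [AddCommGroup V] [Module F V] {Q : QuadraticForm F V}

theorem stab_pact (hG : Good Q) (p : P Q) (W : Submodule F V) :
    stab hG (pact hG p W) = (stab hG W).map (MulAut.conj p).toMonoidHom := by
  ext r
  rw [Subgroup.mem_map, mem_stab]
  constructor
  · intro h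
    refine ⟨p⁻¹ * r * p, ?_, ?_⟩
    · rw [mem_stab, map_mul, map_mul, Equiv.Perm.mul_apply, Equiv.Perm.mul_apply, h, map_inv, Equiv.Perm.inv_def, Equiv.symm_apply_apply]
    · show p * (p⁻¹ * r * p) * p⁻¹ = r
      group
  · rintro ⟨s, hs, rfl⟩
    show pact hG (p * s * p⁻¹) _ = _
    rw [mem_stab] at hs
    rw [map_mul, map_mul, Equiv.Perm.mul_apply, Equiv.Perm.mul_apply, map_inv, Equiv.Perm.inv_def, Equiv.symm_apply_apply, hs]

theorem pt_of_one (hG : Good Q) {α : MulAut (P Q)} {x : V} (hx : Q x = 0) (hx0 : x ≠ 0)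
    (h : ∃ y, Q y = 0 ∧ y ≠ 0 ∧
      (stab hG (Submodule.span F {x})).map α.toMonoidHom = stab hG (Submodule.span F {y})) : Pt hG α := by
  intro x' hx' hx0'
  obtain ⟨y, hy, hy0, h⟩ := h
  obtain ⟨g, hg, hgx⟩ := hG.trans_sing hx hx' hx0 hx0'
  obtain ⟨k, hk⟩ := QuotientGroup.mk_surjective (α ((⟨g, hg⟩ : ↥(E Q)) : P Q))
  have h1 : Submodule.span F {x'} = pact hG ((⟨g, hg⟩ : ↥(E Q)) : P Q) (Submodule.span F {x}) := by
    rw [pact_mk, mapHom_span]
    show _ = Submodule.span F {g x}
    rw [hgx]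
  refine ⟨(k : V ≃ₗ[F] V) y, ?_, ?_, ?_⟩
  · rw [mem_O.1 (E_le_O k.2), hy]
  · intro h2
    exact hy0 ((LinearEquiv.map_eq_zero_iff _).1 h2)
  · have h2 : Submodule.span F {(k : V ≃ₗ[F] V) y} =
        pact hG (α ((⟨g, hg⟩ : ↥(E Q)) : P Q)) (Submodule.span F {y}) := by
      rw [← hk, pact_mk, mapHom_span]
    rw [h1, h2, stab_pact, stab_pact, ← h, Subgroup.map_map, Subgroup.map_map]
    congr 1
    ext r
    simp

end

variable {F : Type*} [Field F] {ι : Type} [Fintype ι] [DecidableEq ι] {Q : QuadraticForm F (ι → F)}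
  {J : Type*} [Fintype J] [DecidableEq J] {e : J → ι → F} {w : ι → F} {α : MulAut (Cfsg.POmega F (⇑Q))}

theorem two_Q (v : ι → F) : polarBilin Q v v = 2 * Q v :=
  H556.Om.polar_self v

theorem sub_isSg {b : Option J → ι → F} (hb : OB (polarBilin Q) b) {j k : J} (hjk : j ≠ k)
    {g : Cfsg.Omega F (⇑Q)} (hg : IsSg (rep (inc (⇑Q))) b j k g) (v : ι → F) :
    v - rep (inc (⇑Q)) g v = (2 * cf Q b (some j) v) • b (some j) + (2 * cf Q b (some k) v) • b (some k) := by
  have h1 : ∀ i, cf Q b i (v - rep (inc (⇑Q)) g v) = if i = some j ∨ i = some k then 2 * cf Q b i v else 0 := by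
    intro i
    have h2 : cf Q b i (v - rep (inc (⇑Q)) g v) = cf Q b i v - cf Q b i (rep (inc (⇑Q)) g v) := by
      unfold cf
      rw [map_sub, sub_mul]
    rw [h2, hg.cf]
    split_ifs
    · ring
    · ring
  rw [hb.span (v - rep (inc (⇑Q)) g v)]
  have h3 : ∀ i, polarBilin Q (b i) (v - rep (inc (⇑Q)) g v) * (polarBilin Q (b i) (b i))⁻¹ =
    if i = some j ∨ i = some k then 2 * cf Q b i v else 0 := h1
  simp only [h3]
  rw [Finset.sum_eq_add (some j) (some k) (fun h => hjk (Option.some_injective _ h))]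
  · rw [if_pos (Or.inl rfl), if_pos (Or.inr rfl)]
  · rintro c - ⟨hc1, hc2⟩
    rw [if_neg (by rintro (h | h); exacts [hc1 h, hc2 h]), zero_smul]
  · intro h; exact absurd (Finset.mem_univ _) h
  · intro h; exact absurd (Finset.mem_univ _) h

/-- **No triality.** -/
theorem ind_of_frame [Finite F] (hG : Good Q) (hQ : GoodQ Q) (h7 : 7 ≤ Fintype.card ι) (h2 : (2 : F) ≠ 0)
    (hF : Frame (polarBilin Q) e) (hw : ∀ j, polarBilin Q (e j) w = 0) (hw0 : polarBilin Q w w ≠ 0)
    (hc : Fintype.card J + 1 = Fintype.card ι)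
    (hfix : ∀ j k, j ≠ k → ∀ g : Cfsg.Omega F (⇑Q), rep (inc (⇑Q)) g = mono (polarBilin Q) e (H556.Om.sg F j k) id →
      α (QuotientGroup.mk g) = QuotientGroup.mk g) : Ind (⇑Q) α := by
  rw [ind_iff_pt hG h7]
  obtain ⟨a1, a2, a3, h12, h13, h23⟩ := Fintype.two_lt_card_iff.1 (show 2 < Fintype.card J by omega)
  set b := bs e w with hbdef
  have hb : OB (polarBilin Q) b := ob_bs h2 hF hw hw0 hc
  obtain ⟨p, hp⟩ := CharP.exists F
  obtain ⟨x, y, hxy⟩ : ∃ x y : F, x ^ 2 + y ^ 2 = -1 := by
    have hp0 : NeZero p := ⟨CharP.char_ne_zero_of_finite F p⟩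
    obtain ⟨a, b, hab⟩ := CharP.sq_add_sq F p (-1)
    exact ⟨a, b, by rw [hab]; norm_num⟩
  set u : ι → F := x • e a1 + y • e a2 + e a3 with hu
  have hQu : Q u = 0 := by
    have h3 : polarBilin Q u u = 2 * (x ^ 2 + y ^ 2 + 1) := by
      rw [hu]
      simp only [map_add, map_smul, LinearMap.add_apply, LinearMap.smul_apply, smul_eq_mul, hF.self,
        hF.orth _ _ h12, hF.orth _ _ h13, hF.orth _ _ h23, hF.orth _ _ h12.symm, hF.orth _ _ h13.symm,
        hF.orth _ _ h23.symm]
      ring
    rw [two_Q, hxy] at h3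
    have h4 : (2 : F) * Q u = 0 := by rw [h3]; ring
    exact (mul_eq_zero.1 h4).resolve_left h2
  have hu0 : u ≠ 0 := by
    intro h0
    have h3 : polarBilin Q (e a3) u = 2 := by
      rw [hu]
      simp only [map_add, map_smul, hF.self, hF.orth _ _ h13.symm, hF.orth _ _ h23.symm, smul_zero, zero_add]
    rw [h0, map_zero] at h3
    exact h2 h3.symm
  rcases Cfsg.Agent.ClassicalGeometry.OrthAut3.dichotomy hG (by rwa [Module.finrank_fintype_fun_eq_card])
    (tr hG α) hQu hu0 with h | h
  · exact pt_of_one hG hQu hu0 h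
  exfalso
  obtain ⟨h8, W, hTS, hW4, hW⟩ := h
  rw [Module.finrank_fintype_fun_eq_card] at h8
  let S : Finset J := Finset.univ \ {a1, a2, a3}
  have hmS : ∀ j, j ∈ S ↔ j ≠ a1 ∧ j ≠ a2 ∧ j ≠ a3 := by
    intro j
    simp [S]
  have hS : 4 ≤ S.card := by
    have h3 := Finset.le_card_sdiff ({a1, a2, a3} : Finset J) Finset.univ
    have h4 : ({a1, a2, a3} : Finset J).card ≤ 3 := Finset.card_le_three
    rw [Finset.card_univ] at h3
    show 4 ≤ (Finset.univ \ {a1, a2, a3} : Finset J).card
    omega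
  -- sign changes outside preserve `W`
  have hmemW : ∀ j ∈ S, ∀ k ∈ S, j ≠ k → ∀ v ∈ W,
      cf Q b (some j) v * cf Q b (some j) v + cf Q b (some k) v * cf Q b (some k) v = 0 := by
    intro j hj k hk hjk v hv
    obtain ⟨g, hg⟩ := exists_sg hQ h2 hF hjk
    have hsg : IsSg (rep (inc (⇑Q))) b j k g := isSg_of h2 hF hw hg
    have hgα := hfix j k hjk g hg
    have hfx : ∀ a, a ∉ S → rep (inc (⇑Q)) g (e a) = e a := by
      intro a ha
      have h3 := hsg (some a)
      rw [if_neg] at h3
      · exact h3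
      · rintro (h | h)
        · exact ha (Option.some_injective _ h ▸ hj)
        · exact ha (Option.some_injective _ h ▸ hk)
    have hgu : rep (inc (⇑Q)) g u = u := by
      rw [hu]
      simp only [map_add, map_smul]
      rw [hfx a1 (by simp [hmS]), hfx a2 (by simp [hmS]), hfx a3 (by simp [hmS])]
    have h3 : ((oe hG g : ↥(E Q)) : P Q) ∈ stab hG (Submodule.span F {u}) := by
      apply mem_stab_of_map_le
      intro z hz
      obtain ⟨c, rfl⟩ := Submodule.mem_span_singleton.1 hz
      have h4 : (oe hG g : (ι → F) ≃ₗ[F] (ι → F)) u = u := hgu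
      rw [map_smul, h4]
      exact hz
    have h4 : ((oe hG g : ↥(E Q)) : P Q) ∈ stab hG W := by
      rw [← hW]
      refine ⟨_, h3, ?_⟩
      show tr hG α ((oe hG g : ↥(E Q)) : P Q) = _
      rw [tr_apply, hgα, pe_mk]
    have h5 : rep (inc (⇑Q)) g v ∈ W := apply_mem_of_mem_stab h4 hv
    have h6 := hTS _ (W.sub_mem hv h5)
    have h7 := two_Q (Q := Q) (v - rep (inc (⇑Q)) g v)
    rw [h6, mul_zero, sub_isSg hb hjk hsg] at h7
    have h8 : polarBilin Q (b (some j)) (b (some j)) = 2 := hF.self j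
    have h9 : polarBilin Q (b (some k)) (b (some k)) = 2 := hF.self k
    simp only [map_add, map_smul, LinearMap.add_apply, LinearMap.smul_apply, smul_eq_mul, h8, h9,
      hb.orth (some j) (some k) (fun h => hjk (Option.some_injective _ h)),
      hb.orth (some k) (some j) (fun h => hjk (Option.some_injective _ h).symm)] at h7
    have h10 : (2 * (2 * 2) : F) * (cf Q b (some j) v * cf Q b (some j) v +
        cf Q b (some k) v * cf Q b (some k) v) = 0 := by
      linear_combination h7
    exact (mul_eq_zero.1 h10).resolve_left (mul_ne_zero h2 (mul_ne_zero h2 h2))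
  have hzero : ∀ j ∈ S, ∀ v ∈ W, cf Q b (some j) v = 0 := by
    intro j hj v hv
    obtain ⟨k, hk, l, hl, hkl⟩ := Finset.one_lt_card.1 (show 1 < (S.erase j).card by
      rw [Finset.card_erase_of_mem hj]; omega)
    rw [Finset.mem_erase] at hk hl
    have h3 := hmemW j hj k hk.2 hk.1.symm v hv
    have h4 := hmemW j hj l hl.2 hl.1.symm v hv
    have h5 := hmemW k hk.2 l hl.2 hkl v hv
    have h6 : (2 : F) * (cf Q b (some j) v * cf Q b (some j) v) = 0 := by linear_combination h3 + h4 - h5
    exact mul_self_eq_zero.1 ((mul_eq_zero.1 h6).resolve_left h2)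
  have hle : W ≤ Submodule.span F (Set.range ![b none, e a1, e a2, e a3]) := by
    intro v hv
    rw [hb.span v]
    refine Submodule.sum_mem _ fun i _ => ?_
    rcases i with _ | j
    · exact Submodule.smul_mem _ _ (Submodule.subset_span ⟨0, rfl⟩)
    · by_cases hj : j ∈ S
      · have h3 := hzero j hj v hv
        unfold cf at h3
        rw [h3, zero_smul]
        exact Submodule.zero_mem _
      · apply Submodule.smul_mem
        apply Submodule.subset_span
        rw [hmS] at hj
        by_cases h3 : j = a1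
        · exact ⟨1, by rw [h3]; rfl⟩
        · by_cases h4 : j = a2
          · exact ⟨2, by rw [h4]; rfl⟩
          · by_cases h5 : j = a3
            · exact ⟨3, by rw [h5]; rfl⟩
            · exact absurd ⟨h3, h4, h5⟩ hj
  have h3 : Module.finrank F (Submodule.span F (Set.range ![b none, e a1, e a2, e a3])) ≤ 4 :=
    finrank_range_le_card _
  have h4 : W = Submodule.span F (Set.range ![b none, e a1, e a2, e a3]) :=
    Submodule.eq_of_le_of_finrank_le hle (by rw [hW4]; exact h3)
  have h5 : e a1 ∈ W := by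
    rw [h4]
    exact Submodule.subset_span ⟨1, rfl⟩
  have h6 := two_Q (Q := Q) (e a1)
  rw [hTS _ h5, mul_zero, hF.self] at h6
  exact h2 h6

end tri

end Cfsg.Agent.H485.RV
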